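import Cfsg.Agent.H999.IF.EngB
import Cfsg.Agent.H371.IFx.Base
import Cfsg.Agent.H30.IF.Frob

/-!
# S5719: an involution whose centralizer contains a Frobenius group `2^k : p` (helper30)

`false_of`: `z` an involution of `T`, `E ⟨u⟩ ≤ C(z)` a Frobenius group `2^k : p` (`Fr E u p k`), all the involutions of `E`
conjugate to `z`, `T` generated by elements commuting with `z` and elements `g` with `z ^ g ∈ E`, and two numerical
conditions on `N = |z^T|`: no conjugate of `z` is in `A`.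
* `count`: `m` conjugates of `z` in `A` give `m f ^ 5 < |z^T|`.
-/

set_option autoImplicit false
set_option linter.unusedSectionVars false

namespace Cfsg.Agent.H30.Fxy

open Subgroup MulAction Cfsg.Agent.H209.Fxy Cfsg.Agent.H999.IFB

variable {T : Type*} [Group T] [Finite T] {A : Subgroup T} {Γ : Subgroup (MulAut T)}

theorem index_cent (z g : T) : (centralizer ({g⁻¹ * z * g} : Set T)).index = (centralizer ({z} : Set T)).index := by
  have h1 : (centralizer ({z} : Set T)) = (centralizer ({g⁻¹ * z * g} : Set T)).comap (MulAut.conj g⁻¹).toMonoidHom := by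
    ext x
    rw [mem_comap, mem_centralizer_singleton_iff, mem_centralizer_singleton_iff]
    change _ ↔ g⁻¹ * x * g⁻¹⁻¹ * (g⁻¹ * z * g) = g⁻¹ * z * g * (g⁻¹ * x * g⁻¹⁻¹)
    rw [show g⁻¹ * x * g⁻¹⁻¹ * (g⁻¹ * z * g) = g⁻¹ * (x * z) * g by group,
      show g⁻¹ * z * g * (g⁻¹ * x * g⁻¹⁻¹) = g⁻¹ * (z * x) * g by group]
    constructor
    · intro h
      rw [h]
    · intro h
      exact mul_left_cancel (mul_right_cancel h)
  rw [h1, Subgroup.index_comap_of_surjective]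
  exact (MulAut.conj g⁻¹).surjective

theorem rel_le (A : Subgroup T) {z : T} {X : Subgroup T} (hX : ∀ x ∈ X, z * x = x * z) (g : T) :
    (A.comap (MulAut.conj g⁻¹).toMonoidHom).relIndex X ≤ fx A (MulAut.conj (g⁻¹ * z * g)) := by
  rw [Subgroup.relIndex_comap]
  apply Cfsg.Agent.H371.IFx.relIndex_le_fx
  rintro _ ⟨x, hx, rfl⟩
  change g⁻¹ * z * g * (g⁻¹ * x * g⁻¹⁻¹) * (g⁻¹ * z * g)⁻¹ = g⁻¹ * x * g⁻¹⁻¹
  rw [mul_inv_eq_iff_eq_mul, show g⁻¹ * z * g * (g⁻¹ * x * g⁻¹⁻¹) = g⁻¹ * (z * x) * g by group, hX x hx]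
  group

section simple

variable [IsSimpleGroup T]

theorem orderOf_cj {z : T} (g : T) (h2 : orderOf z = 2) : orderOf (g⁻¹ * z * g) = 2 := by
  have h := MulEquiv.orderOf_eq (MulAut.conj g⁻¹) z
  rw [MulAut.conj_apply, inv_inv] at h
  rw [h, h2]

theorem fx_lt (h : IF A Γ) (hna : ∃ a b : T, a * b ≠ b * a) {z : T} (h2 : orderOf z = 2) {b : ℕ}
    (hb : (centralizer ({z} : Set T)).index ≤ b ^ 5) {g : T} (hg : g⁻¹ * z * g ∈ A) :
    fx A (MulAut.conj (g⁻¹ * z * g)) < b := by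
  obtain ⟨-, -, h3, -⟩ := IF.E2' h hna hg (orderOf_cj g h2)
  rw [index_cent] at h3
  exact lt_of_pow_lt_pow_left₀ 5 (Nat.zero_le _) (lt_of_lt_of_le h3 hb)

/-- many conjugates in `A` -/
theorem count (h : IF A Γ) (hna : ∃ a b : T, a * b ≠ b * a) {z : T} (h2 : orderOf z = 2) (hz : z ∈ A) {m : ℕ}
    {D : Set T} (hD : ∀ x ∈ D, x ∈ A ∧ IsConj z x) (hm : m ≤ D.ncard) :
    m * fx A (MulAut.conj z) ^ 5 < (centralizer ({z} : Set T)).index ∨ m = 0 := by
  rcases Nat.eq_zero_or_pos m with hm0 | hm0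
  · exact Or.inr hm0
  left
  have hσ : MulAut.conj z ∈ Γ := (h.conj z).2 hz
  obtain ⟨ho, hc, -⟩ := IF.E2' h hna hz h2
  have h3 := IF.fix_formula' h hσ
  have h4 : D.ncard ≤ (icl (MulAut.conj z) ∩ (Γ : Set (MulAut T))).ncard := by
    have hinj : Function.Injective (MulAut.conj : T → MulAut T) := by
      rw [injective_iff_map_eq_one]
      intro w hw
      apply center_of hna
      intro x
      have h3 := congrArg (fun τ : MulAut T => τ x) hw
      simp only [MulAut.conj_apply, MulAut.one_apply] at h3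
      rwa [mul_inv_eq_iff_eq_mul] at h3
    rw [← Set.ncard_image_of_injective D hinj]
    apply Set.ncard_le_ncard _ (Set.toFinite _)
    rintro _ ⟨x, hx, rfl⟩
    obtain ⟨hxA, hxc⟩ := hD x hx
    refine ⟨?_, (h.conj x).2 hxA⟩
    obtain ⟨c, hc⟩ := isConj_iff.1 hxc
    refine ⟨c, ?_⟩
    rw [← hc, map_mul, map_mul, map_inv]
  rw [hc] at h3
  have h5 := h.small _ hσ ho
  have h6 := fx_pos A (MulAut.conj z)
  generalize fx A (MulAut.conj z) = f at *
  generalize (centralizer ({z} : Set T)).index = N at *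
  have h7 : m * f ^ 6 < f * N := by
    calc m * f ^ 6 < m * A.index := Nat.mul_lt_mul_of_pos_left h5 hm0
      _ ≤ A.index * (icl (MulAut.conj z) ∩ (Γ : Set (MulAut T))).ncard := by
        rw [mul_comm]
        exact Nat.mul_le_mul_left _ (hm.trans h4)
      _ = f * N := h3.symm
  have h8 : f * (m * f ^ 5) < f * N := by
    calc f * (m * f ^ 5) = m * f ^ 6 := by ring
      _ < _ := h7
  exact lt_of_mul_lt_mul_left h8 (Nat.zero_le _)

/-- `E` goes into `A` with `z` -/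
theorem conj_mem (h : IF A Γ) (hna : ∃ a b : T, a * b ≠ b * a) {z u : T} {E : Subgroup T} {p k : ℕ}
    (fr : Fr E u p k) (hzE : ∀ x ∈ E, z * x = x * z) (hzu : z * u = u * z) (h2 : orderOf z = 2)
    (hcj : ∀ x ∈ E, x ≠ 1 → IsConj z x) {b : ℕ} (hN : (centralizer ({z} : Set T)).index ≤ b ^ 5) (hb1 : b ≤ 2 ^ k)
    (hb2 : b ≤ 4 * p) (hN2 : (centralizer ({z} : Set T)).index ≤ (2 ^ (k - 1) - 1) * (2 * p) ^ 5) (hk : 2 ≤ k)
    {g : T} (hg : g⁻¹ * z * g ∈ A) : ∀ x ∈ E, g⁻¹ * x * g ∈ A := by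
  have hX : ∀ x ∈ fr.X, z * x = x * z := by
    rintro _ ⟨i, e, he, rfl⟩
    have h3 : Commute z (u ^ i) := (show Commute z u from hzu).pow_right i
    exact (h3.mul_right (show Commute z e from hzE e he)).eq
  have hr := rel_le A hX g
  have hf := fx_lt h hna h2 hN hg
  set A' := A.comap (MulAut.conj g⁻¹).toMonoidHom with hA'
  have hmem : ∀ x, x ∈ A' ↔ g⁻¹ * x * g ∈ A := by
    intro x
    rw [hA', mem_comap]
    change g⁻¹ * x * g⁻¹⁻¹ ∈ A ↔ _
    rw [inv_inv]
  have h3 : A'.relIndex fr.X < 2 ^ k := lt_of_le_of_lt hr (lt_of_lt_of_le hf hb1)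
  have h4 := fr.half h3 (lt_of_le_of_lt hr (lt_of_lt_of_le hf hb2))
  have h2k : 2 ^ k = 2 * 2 ^ (k - 1) := by
    rw [← pow_succ']
    congr 1
    omega
  have h22 : 2 ≤ 2 ^ (k - 1) := by
    calc 2 = 2 ^ 1 := rfl
      _ ≤ _ := Nat.pow_le_pow_right (by norm_num) (by omega)
  let D : Set T := (fun x : T => g⁻¹ * x * g) '' (((A' ⊓ E : Subgroup T) : Set T) \ {1})
  have hinj : Function.Injective (fun x : T => g⁻¹ * x * g) := fun a b hab => mul_left_cancel (mul_right_cancel hab)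
  have hDc : 2 ^ (k - 1) - 1 ≤ D.ncard := by
    rw [Set.ncard_image_of_injective _ hinj, Set.ncard_sdiff_singleton_of_mem (one_mem (A' ⊓ E))]
    have h5 : ((A' ⊓ E : Subgroup T) : Set T).ncard = Nat.card (A' ⊓ E : Subgroup T) := rfl
    rw [h5]
    omega
  have h5 := count h hna (orderOf_cj g h2) hg (D := D) (m := 2 ^ (k - 1) - 1) (by
    rintro _ ⟨x, ⟨hx, hx1⟩, rfl⟩
    refine ⟨(hmem x).1 hx.1, ?_⟩
    obtain ⟨c, hc⟩ := isConj_iff.1 (hcj x hx.2 hx1)
    rw [isConj_iff]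
    refine ⟨g⁻¹ * c * g, ?_⟩
    rw [← hc]
    group) hDc
  rw [index_cent] at h5
  have h6 : fx A (MulAut.conj (g⁻¹ * z * g)) < 2 * p := by
    rcases h5 with h5 | h5
    · have h7 : (2 ^ (k - 1) - 1) * fx A (MulAut.conj (g⁻¹ * z * g)) ^ 5 < (2 ^ (k - 1) - 1) * (2 * p) ^ 5 :=
        lt_of_lt_of_le h5 hN2
      exact lt_of_pow_lt_pow_left₀ 5 (Nat.zero_le _) (lt_of_mul_lt_mul_left h7 (Nat.zero_le _))
    · omega
  have h7 := fr.le_of_lt h3 (lt_of_le_of_lt hr h6)
  intro x hx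
  exact (hmem x).1 (h7 hx)

/-- all the conjugates of `z` are in `A` -/
theorem false_of_closed (h : IF A Γ) {z : T} (hz1 : z ≠ 1) (P : Set T) (gen : closure P = ⊤)
    (hP : ∀ x ∈ P, ∀ g : T, g⁻¹ * z * g ∈ A → (x * g)⁻¹ * z * (x * g) ∈ A) {g₀ : T} (h0 : g₀⁻¹ * z * g₀ ∈ A) : False := by
  let M : Subgroup T :=
    { carrier := {x | ∀ g : T, g⁻¹ * z * g ∈ A → (x * g)⁻¹ * z * (x * g) ∈ A}
      one_mem' := fun g hg => by rwa [one_mul]
      mul_mem' := by
        intro x y hx hy g hg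
        rw [mul_assoc x y g]
        exact hx _ (hy g hg)
      inv_mem' := by
        intro x hx
        have h1 : ∀ n : ℕ, ∀ g : T, g⁻¹ * z * g ∈ A → (x ^ n * g)⁻¹ * z * (x ^ n * g) ∈ A := by
          intro n
          induction n with
          | zero => intro g hg; rwa [pow_zero, one_mul]
          | succ n ih =>
            intro g hg
            rw [pow_succ', mul_assoc x]
            exact hx _ (ih g hg)
        have h2 : x⁻¹ = x ^ (orderOf x - 1) := by
          rw [inv_eq_iff_mul_eq_one, ← pow_succ', Nat.sub_add_cancel (orderOf_pos x), pow_orderOf_eq_one]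
        intro g hg
        rw [h2]
        exact h1 _ g hg }
  have hM : M = ⊤ := by
    rw [eq_top_iff, ← gen, closure_le]
    exact fun x hx => hP x hx
  have hall : ∀ x : T, x⁻¹ * z * x ∈ A := by
    intro x
    have h1 : x * g₀⁻¹ ∈ M := by rw [hM]; exact mem_top _
    have h2 := h1 g₀ h0
    rwa [inv_mul_cancel_right] at h2
  have hN : normalClosure ({z} : Set T) ≤ A := by
    rw [normalClosure, closure_le]
    intro y hy
    obtain ⟨a, ha, hc⟩ := Group.mem_conjugatesOfSet_iff.1 hy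
    rw [Set.mem_singleton_iff] at ha
    subst ha
    obtain ⟨c, hc⟩ := isConj_iff.1 hc
    have h1 := hall c⁻¹
    rw [inv_inv, hc] at h1
    exact h1
  rcases (inferInstance : (normalClosure ({z} : Set T)).Normal).eq_bot_or_eq_top with h1 | h1
  · apply hz1
    have h2 : z ∈ normalClosure ({z} : Set T) := subset_normalClosure rfl
    rw [h1] at h2
    exact mem_bot.1 h2
  · exact h.ne_top (top_le_iff.1 (h1 ▸ hN))

/-- **No conjugate of `z` is in `A`.** -/
theorem false_of (h : IF A Γ) (hna : ∃ a b : T, a * b ≠ b * a) {z u : T} {E : Subgroup T} {p k : ℕ}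
    (fr : Fr E u p k) (hzE : ∀ x ∈ E, z * x = x * z) (hzu : z * u = u * z) (h2 : orderOf z = 2)
    (hcj : ∀ x ∈ E, x ≠ 1 → IsConj z x) {b : ℕ} (hN : (centralizer ({z} : Set T)).index ≤ b ^ 5) (hb1 : b ≤ 2 ^ k)
    (hb2 : b ≤ 4 * p) (hN2 : (centralizer ({z} : Set T)).index ≤ (2 ^ (k - 1) - 1) * (2 * p) ^ 5) (hk : 2 ≤ k)
    (P : Set T) (gen : closure P = ⊤) (hP : ∀ x ∈ P, z * x = x * z ∨ x⁻¹ * z * x ∈ E) {x : T} (hx : x ∈ A)
    (hc : IsConj z x) : False := by
  obtain ⟨c, hc⟩ := isConj_iff.1 hc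
  refine false_of_closed h (z := z) (by rintro rfl; rw [orderOf_one] at h2; norm_num at h2) P gen ?_
    (g₀ := c⁻¹) (by rw [inv_inv, hc]; exact hx)
  intro x hx g hg
  rcases hP x hx with h3 | h3
  · rw [show (x * g)⁻¹ * z * (x * g) = g⁻¹ * (x⁻¹ * (z * x)) * g by group, h3, inv_mul_cancel_left]
    exact hg
  · rw [show (x * g)⁻¹ * z * (x * g) = g⁻¹ * (x⁻¹ * z * x) * g by group]
    exact conj_mem h hna fr hzE hzu h2 hcj hN hb1 hb2 hN2 hk hg _ h3

/-- if all automorphisms are inner then `A` has even order -/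
theorem exists_inv (h : IF A Γ) (hna : ∃ a b : T, a * b ≠ b * a)
    (hin : ∀ x : MulAut T, x ∈ (MulAut.conj : T →* MulAut T).range) : ∃ t ∈ A, orderOf t = 2 := by
  obtain ⟨σ, hσ, h2, -⟩ := h.ex
  obtain ⟨t, rfl⟩ := hin σ
  exact ⟨t, (h.conj t).1 hσ, by rw [← orderOf_conj hna, h2]⟩

end simple

end Cfsg.Agent.H30.Fxy
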