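import Cfsg.Agent.H30.IF.Frob

/-!
# The Frobenius group `2^4 : 5` from relations (helper30, S5719)

`exists_fr`: `e` an involution commuting with `e^u` and `e^(u²)`, `u ^ 5 = 1`, `e e^u e^(u²) e^(u³) e^(u⁴) = 1` give
`Fr E u 5 4`; every involution of `E` is conjugate (under `⟨u⟩`) to `e`, `e e^u` or `e e^(u²)`.
-/

set_option autoImplicit false

namespace Cfsg.Agent.H30.Fxy

open Subgroup

variable {G : Type*} [Group G]

/-- fixed point free action of an element of prime order -/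
theorem card_modEq {p : ℕ} [Fact p.Prime] {W : Subgroup G} [Finite W] {u : G} (hu : u ^ p = 1)
    (hi : ∀ x ∈ W, u * x * u⁻¹ ∈ W) (hfix : ∀ x ∈ W, u * x = x * u → x = 1) : 1 ≡ Nat.card W [MOD p] := by
  classical
  let f : Function.End W := fun x => ⟨u * x * u⁻¹, hi x x.2⟩
  have hf : ∀ n : ℕ, ∀ x : W, (((f ^ n) x : W) : G) = u ^ n * x * (u ^ n)⁻¹ := by
    intro n
    induction n with
    | zero =>
      intro x
      change (x : G) = _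
      simp
    | succ n ih =>
      intro x
      rw [pow_succ']
      change (u * (((f ^ n) x : W) : G) * u⁻¹) = _
      rw [ih, pow_succ']
      group
  have hfp : f ^ p ^ 1 = 1 := by
    funext x
    apply Subtype.ext
    rw [hf, pow_one, hu]
    change _ = (x : G)
    simp
  have : Fintype W := Fintype.ofFinite _
  have h1 := Equiv.Perm.card_fixedPoints_modEq hfp
  have h2 : Fintype.card (Function.fixedPoints f) = 1 := by
    rw [Fintype.card_eq_one_iff]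
    refine ⟨⟨1, ?_⟩, ?_⟩
    · apply Subtype.ext
      change u * ((1 : W) : G) * u⁻¹ = ((1 : W) : G)
      simp
    · rintro ⟨y, hy⟩
      apply Subtype.ext
      apply Subtype.ext
      have hy' : u * (y : G) * u⁻¹ = y := congrArg Subtype.val hy
      exact hfix _ y.2 (mul_inv_eq_iff_eq_mul.1 hy')
  rw [h2] at h1
  rw [Nat.card_eq_fintype_card]
  exact h1.symm

/-- five commuting involutions with product one permuted by `u` -/
structure Rel5 (a0 a1 a2 a3 a4 u : G) : Prop where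
  c0 : u * a0 * u⁻¹ = a1
  c1 : u * a1 * u⁻¹ = a2
  c2 : u * a2 * u⁻¹ = a3
  c3 : u * a3 * u⁻¹ = a4
  c4 : u * a4 * u⁻¹ = a0
  m01 : Commute a0 a1
  m02 : Commute a0 a2
  m03 : Commute a0 a3
  m12 : Commute a1 a2
  m13 : Commute a1 a3
  m23 : Commute a2 a3
  s0 : a0 * a0 = 1
  s1 : a1 * a1 = 1
  s2 : a2 * a2 = 1
  s3 : a3 * a3 = 1
  pr : a4 = a0 * a1 * (a2 * a3)

/-- the elements -/
def mm (a0 a1 a2 a3 : G) (b0 b1 b2 b3 : ℕ) : G := a0 ^ b0 * a1 ^ b1 * (a2 ^ b2 * a3 ^ b3)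

variable {a0 a1 a2 a3 a4 u : G}

theorem Rel5.mul (h : Rel5 a0 a1 a2 a3 a4 u) (b0 b1 b2 b3 c0 c1 c2 c3 : ℕ) :
    mm a0 a1 a2 a3 b0 b1 b2 b3 * mm a0 a1 a2 a3 c0 c1 c2 c3 =
      mm a0 a1 a2 a3 (b0 + c0) (b1 + c1) (b2 + c2) (b3 + c3) := by
  have k1 : Commute (a2 ^ b2 * a3 ^ b3) (a0 ^ c0 * a1 ^ c1) :=
    ((h.m02.pow_pow _ _).mul_left (h.m12.pow_pow _ _)).symm.mul_left ((h.m03.pow_pow _ _).mul_left (h.m13.pow_pow _ _)).symm
  have k2 : Commute (a1 ^ b1) (a0 ^ c0) := (h.m01.pow_pow _ _).symm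
  have k3 : Commute (a3 ^ b3) (a2 ^ c2) := (h.m23.pow_pow _ _).symm
  unfold mm
  rw [k1.mul_mul_mul_comm, k2.mul_mul_mul_comm, k3.mul_mul_mul_comm, pow_add, pow_add, pow_add, pow_add]

theorem Rel5.even (h : Rel5 a0 a1 a2 a3 a4 u) {b0 b1 b2 b3 : ℕ} (h0 : b0 % 2 = 0) (h1 : b1 % 2 = 0)
    (h2 : b2 % 2 = 0) (h3 : b3 % 2 = 0) : mm a0 a1 a2 a3 b0 b1 b2 b3 = 1 := by
  have key : ∀ {a : G} {b : ℕ}, a * a = 1 → b % 2 = 0 → a ^ b = 1 := by
    intro a b ha hb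
    obtain ⟨c, rfl⟩ : ∃ c, b = 2 * c := ⟨b / 2, by omega⟩
    rw [pow_mul, pow_two, ha, one_pow]
  unfold mm
  rw [key h.s0 h0, key h.s1 h1, key h.s2 h2, key h.s3 h3]
  simp

theorem Rel5.mod (h : Rel5 a0 a1 a2 a3 a4 u) (b0 b1 b2 b3 : ℕ) :
    mm a0 a1 a2 a3 b0 b1 b2 b3 = mm a0 a1 a2 a3 (b0 % 2) (b1 % 2) (b2 % 2) (b3 % 2) := by
  have h1 := h.mul (b0 % 2) (b1 % 2) (b2 % 2) (b3 % 2) (2 * (b0 / 2)) (2 * (b1 / 2)) (2 * (b2 / 2)) (2 * (b3 / 2))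
  rw [h.even (b0 := 2 * (b0 / 2)) (b1 := 2 * (b1 / 2)) (b2 := 2 * (b2 / 2)) (b3 := 2 * (b3 / 2)) (by omega) (by omega)
    (by omega) (by omega), mul_one, Nat.mod_add_div, Nat.mod_add_div, Nat.mod_add_div, Nat.mod_add_div] at h1
  exact h1.symm

theorem Rel5.diag (h : Rel5 a0 a1 a2 a3 a4 u) (n : ℕ) : a4 ^ n = mm a0 a1 a2 a3 n n n n := by
  have h1 : a4 = mm a0 a1 a2 a3 1 1 1 1 := by
    rw [h.pr]
    unfold mm
    simp
  induction n with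
  | zero => unfold mm; simp
  | succ n ih => rw [pow_succ, ih, h1, h.mul]

theorem Rel5.conj (h : Rel5 a0 a1 a2 a3 a4 u) (b0 b1 b2 b3 : ℕ) :
    u * mm a0 a1 a2 a3 b0 b1 b2 b3 * u⁻¹ = mm a0 a1 a2 a3 b3 (b0 + b3) (b1 + b3) (b2 + b3) := by
  have key : ∀ (x y : G), u * (x * y) * u⁻¹ = (u * x * u⁻¹) * (u * y * u⁻¹) := fun x y => by group
  have keyp : ∀ (x : G) (n : ℕ), u * x ^ n * u⁻¹ = (u * x * u⁻¹) ^ n := by
    intro x n
    rw [conj_pow]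
  have h1 : u * mm a0 a1 a2 a3 b0 b1 b2 b3 * u⁻¹ = a1 ^ b0 * a2 ^ b1 * (a3 ^ b2 * a4 ^ b3) := by
    unfold mm
    rw [key, key, key, keyp, keyp, keyp, keyp, h.c0, h.c1, h.c2, h.c3]
  have h2 : a1 ^ b0 * a2 ^ b1 * (a3 ^ b2 * a4 ^ b3) =
      mm a0 a1 a2 a3 0 b0 b1 b2 * a4 ^ b3 := by
    unfold mm
    rw [pow_zero, one_mul]
    simp only [mul_assoc]
  rw [h1, h2, h.diag, h.mul, zero_add]

/-- the subgroup -/
def Rel5.E (h : Rel5 a0 a1 a2 a3 a4 u) : Subgroup G where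
  carrier := {x | ∃ b0 b1 b2 b3 : ℕ, x = mm a0 a1 a2 a3 b0 b1 b2 b3}
  one_mem' := ⟨0, 0, 0, 0, by unfold mm; simp⟩
  mul_mem' := by
    rintro _ _ ⟨b0, b1, b2, b3, rfl⟩ ⟨c0, c1, c2, c3, rfl⟩
    exact ⟨_, _, _, _, h.mul _ _ _ _ _ _ _ _⟩
  inv_mem' := by
    rintro _ ⟨b0, b1, b2, b3, rfl⟩
    refine ⟨b0, b1, b2, b3, ?_⟩
    rw [inv_eq_iff_mul_eq_one, h.mul]
    exact h.even (by omega) (by omega) (by omega) (by omega)

theorem Rel5.sq (h : Rel5 a0 a1 a2 a3 a4 u) {x : G} (hx : x ∈ h.E) : x * x = 1 := by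
  obtain ⟨b0, b1, b2, b3, rfl⟩ := hx
  rw [h.mul]
  exact h.even (by omega) (by omega) (by omega) (by omega)

theorem Rel5.norm (h : Rel5 a0 a1 a2 a3 a4 u) {x : G} (hx : x ∈ h.E) : u * x * u⁻¹ ∈ h.E := by
  obtain ⟨b0, b1, b2, b3, rfl⟩ := hx
  exact ⟨_, _, _, _, h.conj _ _ _ _⟩

theorem Rel5.fix (h : Rel5 a0 a1 a2 a3 a4 u) {x : G} (hx : x ∈ h.E) (hc : u * x = x * u) : x = 1 := by
  have h1 : u * x * u⁻¹ = x := by rw [hc, mul_inv_cancel_right]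
  have hs := h.sq hx
  obtain ⟨a, b, c, d, rfl⟩ := hx
  have k1 := h.conj a b c d
  have k2 := h.conj d (a + d) (b + d) (c + d)
  have k3 := h.conj (c + d) (d + (c + d)) (a + d + (c + d)) (b + d + (c + d))
  have k4 := h.conj (b + d + (c + d)) (c + d + (b + d + (c + d))) (d + (c + d) + (b + d + (c + d)))
    (a + d + (c + d) + (b + d + (c + d)))
  rw [h1] at k1
  rw [← k1, h1] at k2
  rw [← k2, h1] at k3
  rw [← k3, h1] at k4
  set x := mm a0 a1 a2 a3 a b c d with hx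
  have h5 : x * x * x * x * x = 1 := by
    conv_lhs =>
      rw [show x * x * x * x * x = x * x * x * x * mm a0 a1 a2 a3 (a + d + (c + d) + (b + d + (c + d)))
        (b + d + (c + d) + (a + d + (c + d) + (b + d + (c + d))))
        (c + d + (b + d + (c + d)) + (a + d + (c + d) + (b + d + (c + d))))
        (d + (c + d) + (b + d + (c + d)) + (a + d + (c + d) + (b + d + (c + d)))) by rw [← k4]]
      rw [show x * x * x * x = x * x * x * mm a0 a1 a2 a3 (b + d + (c + d)) (c + d + (b + d + (c + d)))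
        (d + (c + d) + (b + d + (c + d))) (a + d + (c + d) + (b + d + (c + d))) by rw [← k3]]
      rw [show x * x * x = x * x * mm a0 a1 a2 a3 (c + d) (d + (c + d)) (a + d + (c + d)) (b + d + (c + d)) by
        rw [← k2]]
      rw [show x * x = mm a0 a1 a2 a3 a b c d * mm a0 a1 a2 a3 d (a + d) (b + d) (c + d) by rw [← k1]]
    rw [h.mul, h.mul, h.mul, h.mul]
    exact h.even (by omega) (by omega) (by omega) (by omega)
  rw [hs, one_mul, hs, one_mul] at h5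
  exact h5

theorem Rel5.card_le (h : Rel5 a0 a1 a2 a3 a4 u) [Finite G] : Nat.card h.E ≤ 16 := by
  let f : (Fin 2 × Fin 2) × (Fin 2 × Fin 2) → h.E := fun q =>
    ⟨mm a0 a1 a2 a3 q.1.1 q.1.2 q.2.1 q.2.2, _, _, _, _, rfl⟩
  have hf : Function.Surjective f := by
    rintro ⟨_, b0, b1, b2, b3, rfl⟩
    refine ⟨((⟨b0 % 2, Nat.mod_lt _ (by norm_num)⟩, ⟨b1 % 2, Nat.mod_lt _ (by norm_num)⟩),
      (⟨b2 % 2, Nat.mod_lt _ (by norm_num)⟩, ⟨b3 % 2, Nat.mod_lt _ (by norm_num)⟩)), ?_⟩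
    apply Subtype.ext
    exact (h.mod b0 b1 b2 b3).symm
  have h1 := Nat.card_le_card_of_surjective f hf
  simpa using h1

theorem Rel5.card_eq (h : Rel5 a0 a1 a2 a3 a4 u) [Finite G] (hu : u ^ 5 = 1) (hne : a0 ≠ 1) : Nat.card h.E = 2 ^ 4 := by
  have h5 : Fact (Nat.Prime 5) := ⟨by norm_num⟩
  have h2 : Fact (Nat.Prime 2) := ⟨by norm_num⟩
  have h1 := card_modEq (p := 5) hu (fun x hx => h.norm hx) (fun x hx hc => h.fix hx hc)
  have h3 : IsPGroup 2 h.E := by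
    intro x
    refine ⟨1, ?_⟩
    apply Subtype.ext
    rw [pow_one, pow_two]
    exact h.sq x.2
  obtain ⟨j, hj⟩ := IsPGroup.iff_card.1 h3
  have h4 := h.card_le
  rw [hj] at h1 h4 ⊢
  have h6 : j ≤ 4 := by
    by_contra hcon
    have : 2 ^ 5 ≤ 2 ^ j := Nat.pow_le_pow_right (by norm_num) (by omega)
    omega
  have h7 : j ≠ 0 := by
    rintro rfl
    have h8 := Subgroup.card_eq_one.1 hj
    apply hne
    have h9 : a0 ∈ h.E := ⟨1, 0, 0, 0, by unfold mm; simp⟩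
    rw [h8] at h9
    exact mem_bot.1 h9
  interval_cases j
  · exact absurd rfl h7
  · exact absurd h1 (by decide)
  · exact absurd h1 (by decide)
  · exact absurd h1 (by decide)
  · rfl

theorem Rel5.fr (h : Rel5 a0 a1 a2 a3 a4 u) [Finite G] (hu : u ^ 5 = 1) (hne : a0 ≠ 1) : Fr h.E u 5 4 where
  prime := by norm_num
  ne_two := by norm_num
  sq := fun x hx => h.sq hx
  card := h.card_eq hu hne
  norm := fun x hx => h.norm hx
  ord := by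
    have h5 : Fact (Nat.Prime 5) := ⟨by norm_num⟩
    apply orderOf_eq_prime hu
    rintro rfl
    apply hne
    exact h.fix (x := a0) ⟨1, 0, 0, 0, by unfold mm; simp⟩ (by simp)
  fix := fun x hx hc => h.fix hx hc
  irr := by
    intro j h1 h2
    interval_cases j <;> norm_num

/-- the involutions of `E` -/
theorem Rel5.cases (h : Rel5 a0 a1 a2 a3 a4 u) {x : G} (hx : x ∈ h.E) (h1 : x ≠ 1) :
    IsConj a0 x ∨ IsConj (a0 * a1) x ∨ IsConj (a0 * a2) x := by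
  have key : ∀ (x y : G), u * (x * y) * u⁻¹ = (u * x * u⁻¹) * (u * y * u⁻¹) := fun x y => by group
  have cj : ∀ {x y z : G}, IsConj x y → u * y * u⁻¹ = z → IsConj x z := by
    intro x y z h1 h2
    exact h1.trans (isConj_iff.2 ⟨u, h2⟩)
  have e0 : IsConj a0 a0 := IsConj.refl _
  have e1 : IsConj a0 a1 := cj e0 h.c0
  have e2 : IsConj a0 a2 := cj e1 h.c1
  have e3 : IsConj a0 a3 := cj e2 h.c2
  have e4 : IsConj a0 a4 := cj e3 h.c3
  have f0 : IsConj (a0 * a1) (a0 * a1) := IsConj.refl _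
  have f1 : IsConj (a0 * a1) (a1 * a2) := cj f0 (by rw [key, h.c0, h.c1])
  have f2 : IsConj (a0 * a1) (a2 * a3) := cj f1 (by rw [key, h.c1, h.c2])
  have f3 : IsConj (a0 * a1) (a3 * a4) := cj f2 (by rw [key, h.c2, h.c3])
  have f4 : IsConj (a0 * a1) (a4 * a0) := cj f3 (by rw [key, h.c3, h.c4])
  have g0 : IsConj (a0 * a2) (a0 * a2) := IsConj.refl _
  have g1 : IsConj (a0 * a2) (a1 * a3) := cj g0 (by rw [key, h.c0, h.c2])
  have g2 : IsConj (a0 * a2) (a2 * a4) := cj g1 (by rw [key, h.c1, h.c3])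
  have g3 : IsConj (a0 * a2) (a3 * a0) := cj g2 (by rw [key, h.c2, h.c4])
  have g4 : IsConj (a0 * a2) (a4 * a1) := cj g3 (by rw [key, h.c3, h.c0])
  have m1 : ∀ b0 b1 b2 b3 : ℕ, mm a0 a1 a2 a3 b0 b1 b2 b3 = a0 ^ b0 * a1 ^ b1 * (a2 ^ b2 * a3 ^ b3) := fun _ _ _ _ => rfl
  have w4 : a4 = mm a0 a1 a2 a3 1 1 1 1 := by have := h.diag 1; rwa [pow_one] at this
  have w3 : a3 = mm a0 a1 a2 a3 0 0 0 1 := by unfold mm; simp
  have w2 : a2 = mm a0 a1 a2 a3 0 0 1 0 := by unfold mm; simp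
  have w1 : a1 = mm a0 a1 a2 a3 0 1 0 0 := by unfold mm; simp
  have w0 : a0 = mm a0 a1 a2 a3 1 0 0 0 := by unfold mm; simp
  have p34 : a3 * a4 = mm a0 a1 a2 a3 1 1 1 0 := by
    calc a3 * a4 = mm a0 a1 a2 a3 0 0 0 1 * mm a0 a1 a2 a3 1 1 1 1 := by rw [← w3, ← w4]
      _ = _ := by rw [h.mul, h.mod]
  have p40 : a4 * a0 = mm a0 a1 a2 a3 0 1 1 1 := by
    calc a4 * a0 = mm a0 a1 a2 a3 1 1 1 1 * mm a0 a1 a2 a3 1 0 0 0 := by rw [← w0, ← w4]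
      _ = _ := by rw [h.mul, h.mod]
  have p24 : a2 * a4 = mm a0 a1 a2 a3 1 1 0 1 := by
    calc a2 * a4 = mm a0 a1 a2 a3 0 0 1 0 * mm a0 a1 a2 a3 1 1 1 1 := by rw [← w2, ← w4]
      _ = _ := by rw [h.mul, h.mod]
  have p30 : a3 * a0 = mm a0 a1 a2 a3 1 0 0 1 := by
    calc a3 * a0 = mm a0 a1 a2 a3 0 0 0 1 * mm a0 a1 a2 a3 1 0 0 0 := by rw [← w3, ← w0]
      _ = _ := by rw [h.mul, h.mod]
  have p41 : a4 * a1 = mm a0 a1 a2 a3 1 0 1 1 := by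
    calc a4 * a1 = mm a0 a1 a2 a3 1 1 1 1 * mm a0 a1 a2 a3 0 1 0 0 := by rw [← w1, ← w4]
      _ = _ := by rw [h.mul, h.mod]
  have p01 : a0 * a1 = mm a0 a1 a2 a3 1 1 0 0 := by unfold mm; simp
  have p12 : a1 * a2 = mm a0 a1 a2 a3 0 1 1 0 := by unfold mm; simp
  have p23 : a2 * a3 = mm a0 a1 a2 a3 0 0 1 1 := by unfold mm; simp
  have p02 : a0 * a2 = mm a0 a1 a2 a3 1 0 1 0 := by unfold mm; simp
  have p13 : a1 * a3 = mm a0 a1 a2 a3 0 1 0 1 := by unfold mm; simp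
  obtain ⟨b0, b1, b2, b3, rfl⟩ := hx
  rw [h.mod] at h1 ⊢
  have i0 : b0 % 2 = 0 ∨ b0 % 2 = 1 := by omega
  have i1 : b1 % 2 = 0 ∨ b1 % 2 = 1 := by omega
  have i2 : b2 % 2 = 0 ∨ b2 % 2 = 1 := by omega
  have i3 : b3 % 2 = 0 ∨ b3 % 2 = 1 := by omega
  rcases i0 with i0 | i0 <;> rcases i1 with i1 | i1 <;> rcases i2 with i2 | i2 <;> rcases i3 with i3 | i3 <;>
    rw [i0, i1, i2, i3] at h1 ⊢
  · exact absurd (h.even rfl rfl rfl rfl) h1
  · rw [← w3]; exact Or.inl e3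
  · rw [← w2]; exact Or.inl e2
  · rw [← p23]; exact Or.inr (Or.inl f2)
  · rw [← w1]; exact Or.inl e1
  · rw [← p13]; exact Or.inr (Or.inr g1)
  · rw [← p12]; exact Or.inr (Or.inl f1)
  · rw [← p40]; exact Or.inr (Or.inl f4)
  · rw [← w0]; exact Or.inl e0
  · rw [← p30]; exact Or.inr (Or.inr g3)
  · rw [← p02]; exact Or.inr (Or.inr g0)
  · rw [← p41]; exact Or.inr (Or.inr g4)
  · rw [← p01]; exact Or.inr (Or.inl f0)
  · rw [← p24]; exact Or.inr (Or.inr g2)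
  · rw [← p34]; exact Or.inr (Or.inl f3)
  · rw [← w4]; exact Or.inl e4

theorem Rel5.commute (h : Rel5 a0 a1 a2 a3 a4 u) {z : G} (hu : z * u = u * z) (h0 : z * a0 = a0 * z) {x : G}
    (hx : x ∈ h.E) : z * x = x * z := by
  have hu' : Commute z u := hu
  have k : ∀ {a b : G}, Commute z a → u * a * u⁻¹ = b → Commute z b := by
    intro a b h1 h2
    rw [← h2]
    exact (hu'.mul_right h1).mul_right hu'.inv_right
  have c0 : Commute z a0 := h0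
  have c1 := k c0 h.c0
  have c2 := k c1 h.c1
  have c3 := k c2 h.c2
  obtain ⟨b0, b1, b2, b3, rfl⟩ := hx
  exact (((c0.pow_right _).mul_right (c1.pow_right _)).mul_right ((c2.pow_right _).mul_right (c3.pow_right _))).eq

/-- **The relations** -/
theorem Rel5.of {e u : G} (he : e * e = 1) (hu : u ^ 5 = 1) (h1 : Commute e (u * e * u⁻¹))
    (h2 : Commute e (u ^ 2 * e * (u ^ 2)⁻¹))
    (hp : u ^ 4 * e * (u ^ 4)⁻¹ = e * (u * e * u⁻¹) * ((u ^ 2 * e * (u ^ 2)⁻¹) * (u ^ 3 * e * (u ^ 3)⁻¹))) :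
    Rel5 e (u * e * u⁻¹) (u ^ 2 * e * (u ^ 2)⁻¹) (u ^ 3 * e * (u ^ 3)⁻¹) (u ^ 4 * e * (u ^ 4)⁻¹) u := by
  have u5 : ∀ x : G, u ^ 5 * x * (u ^ 5)⁻¹ = x := by
    intro x
    rw [hu]
    simp
  have cm : ∀ {x y : G} (n : ℕ), Commute x y → Commute (u ^ n * x * (u ^ n)⁻¹) (u ^ n * y * (u ^ n)⁻¹) := by
    intro x y n h
    show _ * _ = _ * _
    rw [show u ^ n * x * (u ^ n)⁻¹ * (u ^ n * y * (u ^ n)⁻¹) = u ^ n * (x * y) * (u ^ n)⁻¹ by group, h.eq]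
    group
  have sq : ∀ (n : ℕ), (u ^ n * e * (u ^ n)⁻¹) * (u ^ n * e * (u ^ n)⁻¹) = 1 := by
    intro n
    rw [show (u ^ n * e * (u ^ n)⁻¹) * (u ^ n * e * (u ^ n)⁻¹) = u ^ n * (e * e) * (u ^ n)⁻¹ by group, he]
    group
  refine ⟨rfl, ?_, ?_, ?_, ?_, h1, h2, ?_, ?_, ?_, ?_, he, ?_, sq 2, sq 3, hp⟩
  · rw [pow_two]
    group
  · group
  · group
  · rw [show u * (u ^ 4 * e * (u ^ 4)⁻¹) * u⁻¹ = u ^ 5 * e * (u ^ 5)⁻¹ by group, u5]
  · have h3 := cm 3 h2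
    rw [show u ^ 3 * (u ^ 2 * e * (u ^ 2)⁻¹) * (u ^ 3)⁻¹ = u ^ 5 * e * (u ^ 5)⁻¹ by group, u5] at h3
    exact h3.symm
  · have h3 := cm 1 h1
    rw [pow_one, show u * (u * e * u⁻¹) * u⁻¹ = u ^ 2 * e * (u ^ 2)⁻¹ by rw [pow_two]; group] at h3
    exact h3
  · have h3 := cm 1 h2
    rw [pow_one, show u * (u ^ 2 * e * (u ^ 2)⁻¹) * u⁻¹ = u ^ 3 * e * (u ^ 3)⁻¹ by group] at h3
    exact h3
  · have h3 := cm 2 h1
    rw [show u ^ 2 * (u * e * u⁻¹) * (u ^ 2)⁻¹ = u ^ 3 * e * (u ^ 3)⁻¹ by group] at h3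
    exact h3
  · have h3 := sq 1
    rwa [pow_one] at h3

end Cfsg.Agent.H30.Fxy
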